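import Cfsg.Agent.Lib.Helper58.OmSyl.Defs

set_option autoImplicit false

namespace Cfsg.Agent.Lib.Helper81.OmSyl

open Cfsg Cfsg.Agent.Lib.Helper58.WrSyl Cfsg.Agent.Lib.Helper44 Cfsg.Agent.Lib.Helper58.OmSyl
open QuadraticMap Module

variable {F : Type*} [Field F] {n r : ℕ}

/-- the natural action, as a linear map -/
def stdLin (w : Wr (OQ (QU F)) n) (ε : Fin r → ℤˣ) : (Idx n r → F) →ₗ[F] (Idx n r → F) where
  toFun x := Sum.elim
    (fun it => ((w.left it.1 : OQ (QU F)) : (Fin 2 → F) ≃ₗ[F] (Fin 2 → F))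
      (fun s => x (Sum.inl (w.right.symm it.1, s))) it.2)
    (fun k => (((ε k : ℤˣ) : ℤ) : F) * x (Sum.inr k))
  map_add' x y := by
    funext j
    rcases j with ⟨i, t⟩ | k
    · simp only [Sum.elim_inl, Pi.add_apply]
      rw [← Pi.add_apply, ← map_add]
      rfl
    · simp [mul_add]
  map_smul' c x := by
    funext j
    rcases j with ⟨i, t⟩ | k
    · simp only [Sum.elim_inl, Pi.smul_apply, RingHom.id_apply]
      rw [← Pi.smul_apply, ← map_smul]
      rfl
    · simp [mul_left_comm]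

theorem stdLin_inl (w : Wr (OQ (QU F)) n) (ε : Fin r → ℤˣ) (x : Idx n r → F) (i : Fin n) (t : Fin 2) :
    stdLin w ε x (Sum.inl (i, t)) = ((w.left i : OQ (QU F)) : (Fin 2 → F) ≃ₗ[F] (Fin 2 → F))
      (fun s => x (Sum.inl (w.right.symm i, s))) t := rfl

theorem stdLin_inr (w : Wr (OQ (QU F)) n) (ε : Fin r → ℤˣ) (x : Idx n r → F) (k : Fin r) :
    stdLin w ε x (Sum.inr k) = (((ε k : ℤˣ) : ℤ) : F) * x (Sum.inr k) := rfl

/-- the natural action, as a monoid homomorphism to the endomorphisms -/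
def stdEnd : Wr (OQ (QU F)) n × (Fin r → ℤˣ) →* Module.End F (Idx n r → F) where
  toFun y := stdLin y.1 y.2
  map_one' := by
    apply LinearMap.ext
    intro x
    funext j
    rcases j with ⟨i, t⟩ | k
    · simp [stdLin_inl]
      rfl
    · simp [stdLin_inr]
  map_mul' y z := by
    apply LinearMap.ext
    intro x
    funext j
    rcases j with ⟨i, t⟩ | k
    · rw [Module.End.mul_apply, stdLin_inl, stdLin_inl]
      simp only [Prod.fst_mul, SemidirectProduct.mul_left, Pi.mul_apply, permAut_apply,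
        Subgroup.coe_mul, LinearEquiv.mul_apply, SemidirectProduct.mul_right]
      rfl
    · rw [Module.End.mul_apply, stdLin_inr, stdLin_inr, stdLin_inr]
      simp [mul_assoc]

theorem QM_stdLin (a : Fin r → F) (w : Wr (OQ (QU F)) n) (ε : Fin r → ℤˣ) (x : Idx n r → F) :
    QM n a (stdLin w ε x) = QM n a x := by
  rw [QM_apply, QM_apply]
  congr 1
  · have h1 : ∀ i : Fin n, (∑ t : Fin 2, stdLin w ε x (Sum.inl (i, t)) * stdLin w ε x (Sum.inl (i, t))) =
        ∑ t : Fin 2, x (Sum.inl (w.right.symm i, t)) * x (Sum.inl (w.right.symm i, t)) := by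
      intro i
      have h := (w.left i).2 (fun s => x (Sum.inl (w.right.symm i, s)))
      rw [QU_apply, QU_apply] at h
      simp only [Fin.sum_univ_two, stdLin_inl]
      exact h
    rw [Finset.sum_congr rfl (fun i _ => h1 i)]
    exact Equiv.sum_comp w.right.symm
      (fun i => ∑ t : Fin 2, x (Sum.inl (i, t)) * x (Sum.inl (i, t)))
  · apply Finset.sum_congr rfl
    intro k _
    rw [stdLin_inr]
    have h : (((ε k : ℤˣ) : ℤ) : F) * (((ε k : ℤˣ) : ℤ) : F) = 1 := by
      rw [← Int.cast_mul, ← Units.val_mul, Int.units_mul_self]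
      simp
    calc a k * ((((ε k : ℤˣ) : ℤ) : F) * x (Sum.inr k) * ((((ε k : ℤˣ) : ℤ) : F) * x (Sum.inr k)))
        = a k * (((((ε k : ℤˣ) : ℤ) : F) * (((ε k : ℤˣ) : ℤ) : F)) * (x (Sum.inr k) * x (Sum.inr k))) := by
          ring
      _ = _ := by rw [h, one_mul]

/-- the natural action, with values in the linear automorphisms -/
noncomputable def stdGL : Wr (OQ (QU F)) n × (Fin r → ℤˣ) →* ((Idx n r → F) ≃ₗ[F] (Idx n r → F)) :=
  (LinearMap.GeneralLinearGroup.generalLinearEquiv F (Idx n r → F)).toMonoidHom.comp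
    (MonoidHom.toHomUnits stdEnd)

theorem stdGL_apply (y : Wr (OQ (QU F)) n × (Fin r → ℤˣ)) (x : Idx n r → F) :
    stdGL y x = stdLin y.1 y.2 x := rfl

/-- [E1] -/
theorem exists_std {F : Type*} [Field F] (n : ℕ) {r : ℕ} (a : Fin r → F) :
    ∃ Φ : Wr (OQ (QU F)) n × (Fin r → ℤˣ) →* OQ (QM n a), IsStd Φ := by
  refine ⟨stdGL.codRestrict (OQ (QM n a)) (fun y v => ?_), ?_⟩
  · rw [stdGL_apply, QM_stdLin]
  · intro w ε x
    exact ⟨fun i t => rfl, fun k => rfl⟩

end Cfsg.Agent.Lib.Helper81.OmSyl
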