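import Cfsg.Agent.Lib.Helper58.OmSyl.Defs

set_option autoImplicit false

namespace Cfsg.Agent.Lib.Helper81.OmSyl

open Cfsg Cfsg.Agent.Lib.Helper58.WrSyl Cfsg.Agent.Lib.Helper44 Cfsg.Agent.Lib.Helper58.OmSyl
open QuadraticMap Module

/-- [E2] -/
theorem IsStd.injective {F : Type*} [Field F] (h2 : (2 : F) ≠ 0) {n r : ℕ} {a : Fin r → F}
    {Φ : Wr (OQ (QU F)) n × (Fin r → ℤˣ) →* OQ (QM n a)} (h : IsStd Φ) :
    Function.Injective Φ := by
  rw [injective_iff_map_eq_one]
  rintro ⟨w, ε⟩ hw
  have hx1 : ∀ (x : Idx n r → F) (i : Fin n) (t : Fin 2), x (Sum.inl (i, t)) =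
      ((w.left i : OQ (QU F)) : (Fin 2 → F) ≃ₗ[F] (Fin 2 → F))
          (fun s => x (Sum.inl (w.right.symm i, s))) t := by
    intro x i t
    rw [← (h w ε x).1 i t, hw]
    rfl
  have hx2 : ∀ (x : Idx n r → F) (k : Fin r), x (Sum.inr k) = (((ε k : ℤˣ) : ℤ) : F) * x (Sum.inr k) := by
    intro x k
    rw [← (h w ε x).2 k, hw]
    rfl
  have hr : ∀ i, w.right.symm i = i := by
    intro i
    by_contra hne
    have h0 : ((w.left i : OQ (QU F)) : (Fin 2 → F) ≃ₗ[F] (Fin 2 → F))
        (fun s => (Pi.single (Sum.inl (w.right.symm i, 0)) 1 : Idx n r → F)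
          (Sum.inl (w.right.symm i, s))) = 0 := by
      funext t
      rw [← hx1]
      rw [Pi.single_apply, if_neg]
      · rfl
      · intro hcon
        simp only [Sum.inl.injEq, Prod.mk.injEq] at hcon
        exact hne hcon.1.symm
    have h1 := (LinearEquiv.map_eq_zero_iff _).mp h0
    have h3 := congrFun h1 0
    simp at h3
  have hright : w.right = 1 := by
    apply Equiv.ext
    intro i
    have := hr (w.right i)
    simp only [Equiv.symm_apply_apply] at this
    exact this.symm
  have hleft : w.left = 1 := by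
    funext i
    apply Subtype.ext
    apply LinearEquiv.ext
    intro u
    funext t
    have := hx1 (Sum.elim (fun it => if it.1 = i then u it.2 else 0) (fun _ => 0)) i t
    simp only [hr, Sum.elim_inl, if_true] at this
    exact this.symm
  have hε : ε = 1 := by
    funext k
    have := hx2 (Pi.single (Sum.inr k) 1) k
    simp only [Pi.single_eq_same, mul_one] at this
    rcases Int.units_eq_one_or (ε k) with h1 | h1
    · exact h1
    · exfalso
      rw [h1] at this
      apply h2
      have h3 : (1 : F) = -1 := by simpa using this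
      calc (2 : F) = 1 + 1 := by norm_num
        _ = 1 + -1 := by rw [← h3]
        _ = 0 := by ring
  rw [hε]
  have : w = 1 := SemidirectProduct.ext hleft hright
  rw [this]
  rfl

end Cfsg.Agent.Lib.Helper81.OmSyl
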