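import Cfsg.Agent.Lib.Helper81.OmSyl.EBase

set_option autoImplicit false

namespace Cfsg.Agent.Lib.Helper81.OmSyl

open Cfsg Cfsg.Agent.Lib.Helper58.WrSyl Cfsg.Agent.Lib.Helper44 Cfsg.Agent.Lib.Helper58.OmSyl
open QuadraticMap Module

theorem QM_diff {F : Type*} [Field F] (n : ℕ) {r : ℕ} (a : Fin r → F) (i j : Fin n) (hij : i ≠ j)
    (t : Fin 2) :
    QM n a (Pi.single (Sum.inl (i, t)) 1 - Pi.single (Sum.inl (j, t)) 1) = 2 := by
  have hPQ : (Sum.inl (i, t) : Idx n r) ≠ Sum.inl (j, t) := by
    simp [hij]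
  unfold QM
  rw [weightedSumSquares_apply]
  rw [Finset.sum_eq_add_of_mem _ _ (Finset.mem_univ _) (Finset.mem_univ _) hPQ]
  · simp [hij, hij.symm]
    norm_num
  · intro c _ hc
    simp [hc.1, hc.2]

/-- [E3] -/
theorem IsStd.perm_mem {F : Type*} [Field F] [Fintype F] (h2 : (2 : F) ≠ 0) {n r : ℕ}
    {a : Fin r → F} (ha : ∀ k, a k ≠ 0)
    {Φ : Wr (OQ (QU F)) n × (Fin r → ℤˣ) →* OQ (QM n a)} (h : IsStd Φ)
    (σ : Equiv.Perm (Fin n)) :
    Φ ((SemidirectProduct.inr σ : Wr (OQ (QU F)) n), 1) ∈ commutator (OQ (QM n a)) := by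
  have hQ := nondeg_QM h2 n a ha
  induction σ using Equiv.Perm.swap_induction_on with
  | one =>
    have : ((SemidirectProduct.inr (1 : Equiv.Perm (Fin n)) : Wr (OQ (QU F)) n), (1 : Fin r → ℤˣ)) = 1 := by
      rw [map_one]; rfl
    rw [this, map_one]
    exact Subgroup.one_mem _
  | swap_mul f i j hij ih =>
    have hmul : ((SemidirectProduct.inr (Equiv.swap i j * f) : Wr (OQ (QU F)) n), (1 : Fin r → ℤˣ)) =
        ((SemidirectProduct.inr (Equiv.swap i j) : Wr (OQ (QU F)) n), (1 : Fin r → ℤˣ)) *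
        ((SemidirectProduct.inr f : Wr (OQ (QU F)) n), (1 : Fin r → ℤˣ)) := by
      rw [map_mul]
      simp
    rw [hmul, map_mul]
    refine Subgroup.mul_mem _ ?_ ih
    set v : Fin 2 → (Idx n r → F) :=
      fun t => Pi.single (Sum.inl (i, t)) 1 - Pi.single (Sum.inl (j, t)) 1 with hv
    have hkey : Φ ((SemidirectProduct.inr (Equiv.swap i j) : Wr (OQ (QU F)) n), 1) =
        ([v 0, v 1].map (reflO (QM n a))).prod := by
      apply Subtype.ext
      apply LinearEquiv.ext
      intro x
      simp only [List.map_cons, List.map_nil, List.prod_cons, List.prod_nil, mul_one,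
        Subgroup.coe_mul, LinearEquiv.mul_apply]
      show _ = refl (QM n a) (v 0) (refl (QM n a) (v 1) x)
      have hne : ∀ t : Fin 2, (Sum.inl (i, t) : Idx n r) ≠ Sum.inl (j, t) := by
        intro t; simp [hij]
      have e1 := refl_wss_swap h2 (Sum.elim (fun _ => (1 : F)) a) (Sum.inl (i, 1)) (Sum.inl (j, 1))
        (hne 1) rfl rfl x
      have e0 := refl_wss_swap h2 (Sum.elim (fun _ => (1 : F)) a) (Sum.inl (i, 0)) (Sum.inl (j, 0))
        (hne 0) rfl rfl (refl (QM n a) (v 1) x)
      have e1' : refl (QM n a) (v 1) x =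
        fun idx => x (Equiv.swap (Sum.inl (i, 1)) (Sum.inl (j, 1)) idx) := e1
      have e0' : refl (QM n a) (v 0) (refl (QM n a) (v 1) x) =
        fun idx => (refl (QM n a) (v 1) x) (Equiv.swap (Sum.inl (i, 0)) (Sum.inl (j, 0)) idx) := e0
      rw [e0', e1']
      funext idx
      rcases idx with ⟨k, t⟩ | k
      · rw [(h _ 1 x).1 k t]
        simp only [SemidirectProduct.left_inr, SemidirectProduct.right_inr, Pi.one_apply,
          OneMemClass.coe_one, LinearEquiv.coe_one, id_eq, Equiv.symm_swap]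
        congr 1
        by_cases hki : k = i
        · subst hki
          fin_cases t
          · simp [Equiv.swap_apply_def, hij]
          · simp [Equiv.swap_apply_def, hij]
        · by_cases hkj : k = j
          · subst hkj
            fin_cases t
            · simp [Equiv.swap_apply_def, hij, hki]
            · simp [Equiv.swap_apply_def, hij, hki]
          · simp [Equiv.swap_apply_def, hki, hkj]
      · rw [(h _ 1 x).2 k]
        simp [Equiv.swap_apply_def]
    rw [hkey]
    apply prod_reflO_mem_commutator hQ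
    · intro u hu
      simp only [List.mem_cons, List.not_mem_nil, or_false] at hu
      rcases hu with rfl | rfl
      · rw [hv]; simp only; rw [QM_diff n a i j hij]; exact h2
      · rw [hv]; simp only; rw [QM_diff n a i j hij]; exact h2
    · exact ⟨1, rfl⟩
    · refine ⟨2, ?_⟩
      simp only [List.map_cons, List.map_nil, List.prod_cons, List.prod_nil, mul_one, hv]
      rw [QM_diff n a i j hij, QM_diff n a i j hij]

end Cfsg.Agent.Lib.Helper81.OmSyl
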