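import Cfsg.Agent.Lib.Helper81.OmSyl.EBase

set_option autoImplicit false

namespace Cfsg.Agent.Lib.Helper81.OmSyl

open Cfsg Cfsg.Agent.Lib.Helper58.WrSyl Cfsg.Agent.Lib.Helper44 Cfsg.Agent.Lib.Helper58.OmSyl
open QuadraticMap Module

variable {F : Type*} [Field F] {n r : ℕ}

/-- the vector with block `i` equal to `u` -/
def emb (r : ℕ) (i : Fin n) (u : Fin 2 → F) : Idx n r → F :=
  Sum.elim (fun it => if it.1 = i then u it.2 else 0) (fun _ => 0)

theorem emb_inl (i k : Fin n) (u : Fin 2 → F) (t : Fin 2) :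
    emb r i u (Sum.inl (k, t)) = if k = i then u t else 0 := rfl

theorem emb_inr (i : Fin n) (u : Fin 2 → F) (k : Fin r) : emb r i u (Sum.inr k) = 0 := rfl

theorem QM_emb (a : Fin r → F) (i : Fin n) (u : Fin 2 → F) : QM n a (emb r i u) = QU F u := by
  rw [QM_apply, QU_apply]
  simp only [emb_inl, emb_inr, mul_zero, Finset.sum_const_zero, add_zero, Fin.sum_univ_two]
  rw [Finset.sum_eq_single i]
  · simp
  · intro b _ hb
    simp [hb]
  · simp

theorem polar_QM_emb (a : Fin r → F) (i : Fin n) (u : Fin 2 → F) (x : Idx n r → F) :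
    polar (QM n a) (emb r i u) x = polar (QU F) u (fun s => x (Sum.inl (i, s))) := by
  unfold QM QU
  rw [polar_wss, polar_wss]
  simp only [Fintype.sum_sum_type, Fintype.sum_prod_type, emb_inl, emb_inr, Sum.elim_inl, Sum.elim_inr,
    zero_mul, mul_zero, Finset.sum_const_zero, add_zero]
  rw [Finset.sum_eq_single i]
  · simp
  · intro b _ hb
    simp [hb]
  · simp

/-- [E4] -/
theorem IsStd.single_mem {F : Type*} [Field F] [Fintype F] (h2 : (2 : F) ≠ 0) {n r : ℕ}
    {a : Fin r → F} (ha : ∀ k, a k ≠ 0)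
    {Φ : Wr (OQ (QU F)) n × (Fin r → ℤˣ) →* OQ (QM n a)} (h : IsStd Φ)
    (i : Fin n) (x : OQ (QU F))
    (hx : Φ ((SemidirectProduct.inl (Pi.mulSingle i x) : Wr (OQ (QU F)) n), 1)
      ∈ commutator (OQ (QM n a))) :
    x ∈ commutator (OQ (QU F)) := by
  have hQM := nondeg_QM h2 n a ha
  have hQU := nondeg_QU (F := F) h2
  let ι : OQ (QU F) →* OQ (QM n a) :=
    Φ.comp ((MonoidHom.inl (Wr (OQ (QU F)) n) (Fin r → ℤˣ)).comp
      ((SemidirectProduct.inl : (Fin n → OQ (QU F)) →* Wr (OQ (QU F)) n).comp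
        (MonoidHom.mulSingle (fun _ : Fin n => OQ (QU F)) i)))
  have hι : ∀ g, ι g = Φ ((SemidirectProduct.inl (Pi.mulSingle i g) : Wr (OQ (QU F)) n), 1) :=
    fun g => rfl
  have hrefl : ∀ u : Fin 2 → F, ι (reflO (QU F) u) = reflO (QM n a) (emb r i u) := by
    intro u
    apply Subtype.ext
    apply LinearEquiv.ext
    intro y
    show _ = refl (QM n a) (emb r i u) y
    rw [refl_apply, QM_emb, polar_QM_emb, hι]
    funext idx
    rcases idx with ⟨k, t⟩ | k
    · rw [(h _ 1 y).1 k t]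
      simp only [SemidirectProduct.left_inl, SemidirectProduct.right_inl, Pi.sub_apply, Pi.smul_apply,
        emb_inl, smul_eq_mul]
      by_cases hk : k = i
      · subst hk
        simp only [Pi.mulSingle_eq_same, if_true]
        show refl (QU F) u _ t = _
        rw [refl_apply]
        rfl
      · rw [Pi.mulSingle_eq_of_ne hk]
        simp [hk]
        rfl
    · rw [(h _ 1 y).2 k]
      simp [emb_inr]
  obtain ⟨l, hl, rfl⟩ := exists_prod_reflO hQU (Or.inr (by simp)) x
  rw [← hι, map_list_prod, List.map_map] at hx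
  have hmap : l.map (⇑ι ∘ reflO (QU F)) = (l.map (emb r i)).map (reflO (QM n a)) := by
    rw [List.map_map]
    apply List.map_congr_left
    intro u _
    exact hrefl u
  rw [hmap] at hx
  have hl' : ∀ v ∈ l.map (emb r i), QM n a v ≠ 0 := by
    intro v hv
    obtain ⟨u, hu, rfl⟩ := List.mem_map.mp hv
    rw [QM_emb]
    exact hl u hu
  have h1 := (prod_reflO_mem_commutator_iff h2 hQM _ hl').mp hx
  rw [prod_reflO_mem_commutator_iff h2 hQU l hl]
  refine ⟨by simpa using h1.1, ?_⟩
  have : (l.map (emb r i)).map (QM n a) = l.map (QU F) := by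
    rw [List.map_map]
    apply List.map_congr_left
    intro u _
    exact QM_emb a i u
  rw [← this]
  exact h1.2

end Cfsg.Agent.Lib.Helper81.OmSyl
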