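import Cfsg.Agent.Lib.Helper12.WrSyl.T4

set_option autoImplicit false

namespace Cfsg.Agent.Lib.Helper81.OmSyl

open Cfsg Cfsg.Agent.Lib.Helper58.WrSyl

/-- [G2] -/
theorem exists_std_sylow_prod {S C : Type*} [Group S] [Finite S] [Group C] [Finite C] (p : ℕ)
    [Fact p.Prime] (n : ℕ) (hC : IsPGroup p C) (Q : Sylow p S)
    (R : Sylow p (Equiv.Perm (Fin n))) :
    ∃ T : Sylow p (Wr S n × C),
      ∀ x : Wr S n × C, x ∈ T ↔ (∀ i, x.1.left i ∈ Q) ∧ x.1.right ∈ R := by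
  obtain ⟨TW, hTW⟩ := Cfsg.Agent.Lib.Helper12.WrSyl.exists_std_sylow p n Q R
  obtain ⟨k, hk⟩ := IsPGroup.iff_card.mp hC
  have hp : p.Prime := Fact.out
  have hcard : Nat.card ((TW : Subgroup (Wr S n)).prod (⊤ : Subgroup C)) =
      p ^ (Nat.card (Wr S n × C)).factorization p := by
    rw [Nat.card_congr ((TW : Subgroup (Wr S n)).prodEquiv (⊤ : Subgroup C)).toEquiv, Nat.card_prod,
      TW.card_eq_multiplicity, Subgroup.card_top, Nat.card_prod, hk,
      Nat.factorization_mul Nat.card_pos.ne' (pow_ne_zero _ hp.ne_zero), Finsupp.add_apply,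
      hp.factorization_pow, Finsupp.single_eq_same, pow_add]
  refine ⟨Sylow.ofCard _ hcard, fun x => ?_⟩
  rw [← hTW]
  show x ∈ (TW : Subgroup (Wr S n)).prod (⊤ : Subgroup C) ↔ _
  rw [Subgroup.mem_prod]
  simp only [Subgroup.mem_top, and_true]
  rfl

end Cfsg.Agent.Lib.Helper81.OmSyl
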