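import Cfsg.Agent.Lib.Helper58.OmSyl.Defs
import Cfsg.Agent.Lib.Helper44.Index

set_option autoImplicit false

namespace Cfsg.Agent.Lib.Helper81.OmSyl

open Cfsg Cfsg.Agent.Lib.Helper58.WrSyl Cfsg.Agent.Lib.Helper44 Cfsg.Agent.Lib.Helper58.OmSyl
open QuadraticMap Module

variable {F : Type*} [Field F]

theorem polar_wss {ι : Type*} [Fintype ι] (w : ι → F) (x y : ι → F) :
    polar (weightedSumSquares F w) x y = ∑ i, 2 * w i * (x i * y i) := by
  simp only [polar, weightedSumSquares_apply, Pi.add_apply, smul_eq_mul, ← Finset.sum_sub_distrib]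
  apply Finset.sum_congr rfl
  intro i _
  ring

theorem nondeg_wss {ι : Type*} [Fintype ι] [DecidableEq ι] (w : ι → F) (h : ∀ i, 2 * w i ≠ 0) :
    (polarBilin (weightedSumSquares F w)).Nondegenerate := by
  constructor
  · intro x hx
    funext j
    have := hx (Pi.single j 1)
    rw [polarBilin_apply_apply, polar_wss] at this
    rw [Finset.sum_eq_single j] at this
    · simpa [h j] using this
    · intro b _ hb
      simp [hb]
    · simp
  · intro x hx
    funext j
    have := hx (Pi.single j 1)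
    rw [polarBilin_apply_apply, polar_wss] at this
    rw [Finset.sum_eq_single j] at this
    · simpa [h j] using this
    · intro b _ hb
      simp [hb]
    · simp

theorem nondeg_QU (h2 : (2 : F) ≠ 0) : (polarBilin (QU F)).Nondegenerate :=
  nondeg_wss _ (fun _ => by simpa using h2)

theorem nondeg_QM (h2 : (2 : F) ≠ 0) (n : ℕ) {r : ℕ} (a : Fin r → F) (ha : ∀ k, a k ≠ 0) :
    (polarBilin (QM n a)).Nondegenerate :=
  nondeg_wss _ (fun j => by
    rcases j with j | k
    · simpa using h2
    · simpa using ⟨h2, ha k⟩)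

/-- the reflection in `e_P - e_Q` swaps the two coordinates -/
theorem refl_wss_swap {ι : Type*} [Fintype ι] [DecidableEq ι] (h2 : (2 : F) ≠ 0) (w : ι → F) (P Q : ι)
    (hPQ : P ≠ Q) (hP : w P = 1) (hQ : w Q = 1) (x : ι → F) :
    refl (weightedSumSquares F w) (Pi.single P 1 - Pi.single Q 1) x = fun j => x (Equiv.swap P Q j) := by
  have hQv : weightedSumSquares F w (Pi.single P 1 - Pi.single Q 1) = 2 := by
    rw [weightedSumSquares_apply]
    rw [Finset.sum_eq_add_of_mem P Q (Finset.mem_univ _) (Finset.mem_univ _) hPQ]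
    · simp [hP, hQ, hPQ, hPQ.symm]
      norm_num
    · intro c _ hc
      simp [hc.1, hc.2]
  have hpol : polar (weightedSumSquares F w) (Pi.single P 1 - Pi.single Q 1) x = 2 * (x P - x Q) := by
    rw [polar_wss]
    rw [Finset.sum_eq_add_of_mem P Q (Finset.mem_univ _) (Finset.mem_univ _) hPQ]
    · simp [hP, hQ, hPQ, hPQ.symm]
      ring
    · intro c _ hc
      simp [hc.1, hc.2]
  rw [refl_apply, hQv, hpol, inv_mul_cancel_left₀ h2]
  funext j
  by_cases hjP : j = P
  · subst hjP
    simp [hPQ]
  · by_cases hjQ : j = Q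
    · subst hjQ
      simp [hjP]
    · simp [hjP, hjQ, Equiv.swap_apply_of_ne_of_ne hjP hjQ]

end Cfsg.Agent.Lib.Helper81.OmSyl
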