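import Mathlib

set_option autoImplicit false

namespace Cfsg.Agent.Lib.Helper81.OmSyl

/-- [G1] -/
theorem sylow_inf_equiv {Y G : Type*} [Group Y] [Group G] [Finite G] (p : ℕ) [Fact p.Prime]
    (Φ : Y →* G) (hΦ : Function.Injective Φ)
    (hval : (Nat.card G).factorization p = (Nat.card Y).factorization p)
    (N : Subgroup G) [hN : N.Normal] (P : Sylow p N) (T : Sylow p Y) :
    Nonempty ((P : Subgroup N) ≃* ((T : Subgroup Y) ⊓ N.comap Φ : Subgroup Y)) := by
  haveI : Finite Y := Finite.of_injective Φ hΦ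
  obtain ⟨T', hT'⟩ := (T.2.map Φ).exists_le_sylow
  have hcard : Nat.card ((T : Subgroup Y).map Φ) = Nat.card (T' : Subgroup G) := by
    rw [Subgroup.card_map_of_injective hΦ, Sylow.card_eq_multiplicity, Sylow.card_eq_multiplicity,
      hval]
  have heq : (T : Subgroup Y).map Φ = (T' : Subgroup G) :=
    Subgroup.eq_of_le_of_card_ge hT' hcard.ge
  obtain ⟨T0, hT0⟩ := Sylow.exists_comap_subtype_eq P
  obtain ⟨g, hg⟩ := MulAction.exists_smul_eq G T0 T'
  have hmem : ∀ x : G, x ∈ (T' : Subgroup G) ↔ g⁻¹ * x * g ∈ (T0 : Subgroup G) := by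
    intro x
    rw [← hg, Sylow.coe_subgroup_smul, Subgroup.mem_pointwise_smul_iff_inv_smul_mem]
    simp [MulAut.smul_def]
  have hP : ∀ x : N, x ∈ (P : Subgroup N) ↔ (x : G) ∈ (T0 : Subgroup G) := by
    intro x
    rw [← hT0]
    rfl
  let ψ : ↥((T : Subgroup Y) ⊓ N.comap Φ) →* N :=
    { toFun := fun y => ⟨g⁻¹ * Φ y * g, hN.conj_mem' _ y.2.2 g⟩
      map_one' := by
        apply Subtype.ext
        simp
      map_mul' := by
        intro a b
        apply Subtype.ext
        simp only [Subgroup.coe_mul, map_mul]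
        group }
  have hinj : Function.Injective ψ := by
    intro a b hab
    have h1 : g⁻¹ * Φ a * g = g⁻¹ * Φ b * g := congrArg Subtype.val hab
    have h2 : Φ a = Φ b := by
      have := mul_right_cancel h1
      exact mul_left_cancel this
    exact Subtype.ext (hΦ h2)
  have hrange : ψ.range = (P : Subgroup N) := by
    ext x
    constructor
    · rintro ⟨y, rfl⟩
      rw [hP]
      show g⁻¹ * Φ y * g ∈ (T0 : Subgroup G)
      rw [← hmem, ← heq]
      exact ⟨y, y.2.1, rfl⟩
    · intro hx
      rw [hP] at hx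
      have h1 : g * (x : G) * g⁻¹ ∈ (T' : Subgroup G) := by
        rw [hmem]
        convert hx using 1
        group
      rw [← heq] at h1
      obtain ⟨y, hyT, hy⟩ := h1
      refine ⟨⟨y, hyT, ?_⟩, ?_⟩
      · show Φ y ∈ N
        rw [hy]
        exact hN.conj_mem _ x.2 g
      · apply Subtype.ext
        show g⁻¹ * Φ y * g = x
        rw [hy]
        group
  exact ⟨((MonoidHom.ofInjective hinj).trans (MulEquiv.subgroupCongr hrange)).symm⟩

end Cfsg.Agent.Lib.Helper81.OmSyl
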